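import Cfsg.Agent.CharBasics.Central
import Cfsg.Agent.CharBasics.Ortho
import Cfsg.Agent.PiClasses.Derived
import Cfsg.Agent.Exceptional.LinearFamily
import Mathlib

/-!
Irreducible characters that are multiplicative on pairs of elements of coprime prime power orders.
-/

set_option autoImplicit false

namespace CfsgLib.CharMult

open Cfsg CfsgLib.CharBasics
open scoped ComplexConjugate commutatorElement

set_option linter.style.haveILetI false

variable {G : Type*} [Group G]

/-- Multiplicativity on nontrivial elements of prime power orders for different primes. -/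
def MulCond (G : Type*) [Group G] : Prop :=
  ∀ (x y : G) (χ : IrrCharacter G), x ≠ 1 → y ≠ 1 →
    (∃ p q a b : ℕ, p.Prime ∧ q.Prime ∧ p ≠ q ∧ orderOf x = p ^ a ∧ orderOf y = q ^ b) →
      (χ : G → ℂ) (x * y) = (χ : G → ℂ) x * (χ : G → ℂ) y

theorem card_linear [Finite G] :
    Nat.card {χ : IrrCharacter G // charDegree (χ : G → ℂ) = 1} = (commutator G).index := by
  classical
  haveI := Fintype.ofFinite G
  refine le_antisymm CfsgLib.PiClasses.card_linear_le_index ?_
  have hA : Nat.card (G →* ℂˣ) = (commutator G).index := by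
    rw [CfsgLib.Exceptional.card_hom_units]
    rfl
  rw [← hA]
  haveI : Finite (IrrCharacter G) := finite_irrCharacter
  have hdeg : ∀ l : G →* ℂˣ, charDegree (fun a => (l a : ℂ)) = 1 := fun l => by
    have h := apply_one (isCharacter_of_irr (CfsgLib.Exceptional.isIrr_of_hom l))
    simp only [map_one, Units.val_one] at h
    exact_mod_cast h.symm
  refine Nat.card_le_card_of_injective
    (fun l => (⟨⟨_, CfsgLib.Exceptional.isIrr_of_hom l⟩, hdeg l⟩ :
      {χ : IrrCharacter G // charDegree (χ : G → ℂ) = 1})) fun l l' h => ?_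
  have h' := congrArg (fun χ : {χ : IrrCharacter G // charDegree (χ : G → ℂ) = 1} => (χ.1 : G → ℂ)) h
  ext a
  exact congrFun h' a

/-- A class column: the linear characters contribute `|G : G'|`. -/
theorem sum_normSq_split [Fintype G] [Fintype (IrrCharacter G)] (g : G) :
    (Nat.card (Subgroup.centralizer ({g} : Set G)) : ℝ) = ((commutator G).index : ℝ) +
      ∑ χ ∈ Finset.univ.filter (fun χ : IrrCharacter G => ¬ charDegree (χ : G → ℂ) = 1),
        ‖(χ : G → ℂ) g‖ ^ 2 := by
  classical
  rw [← sum_normSq_col g, ← Finset.sum_filter_add_sum_filter_not Finset.univ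
    (fun χ : IrrCharacter G => charDegree (χ : G → ℂ) = 1)]
  congr 1
  rw [Finset.sum_congr rfl (g := fun _ => (1 : ℝ)) fun χ hχ => ?_, Finset.sum_const, nsmul_eq_mul, mul_one,
    ← card_linear, Nat.card_eq_fintype_card, Fintype.card_subtype]
  obtain ⟨-, h1⟩ := Finset.mem_filter.mp hχ
  have hc := isCharacter_of_irr χ.2
  obtain ⟨lam, hl, hpow⟩ := exists_eigen hc g
  have h2 : ‖(χ : G → ℂ) g‖ = 1 := by
    have hsum : (χ : G → ℂ) g = ∑ i, lam i := by simpa using hpow 1
    haveI : Unique (Fin (charDegree (χ : G → ℂ))) := by rw [h1]; infer_instance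
    rw [hsum, Fintype.sum_unique]
    exact Complex.norm_eq_one_of_pow_eq_one (hl default) (orderOf_pos g).ne'
  rw [h2, one_pow]

theorem centralizer_card_of_vanish [Fintype G] [Fintype (IrrCharacter G)] {g : G}
    (h : ∀ χ : IrrCharacter G, charDegree (χ : G → ℂ) ≠ 1 → (χ : G → ℂ) g = 0) :
    Nat.card (Subgroup.centralizer ({g} : Set G)) = (commutator G).index := by
  have h1 := sum_normSq_split g
  rw [Finset.sum_eq_zero, add_zero, Nat.cast_inj] at h1
  · exact h1
  · intro χ hχ
    rw [h χ (Finset.mem_filter.mp hχ).2]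
    simp

theorem vanish_of_centralizer_card [Fintype G] [Fintype (IrrCharacter G)] {g : G}
    (h : Nat.card (Subgroup.centralizer ({g} : Set G)) ≤ (commutator G).index) (χ : IrrCharacter G)
    (hχ : charDegree (χ : G → ℂ) ≠ 1) : (χ : G → ℂ) g = 0 := by
  classical
  have h1 := sum_normSq_split g
  have h2 : (Nat.card (Subgroup.centralizer ({g} : Set G)) : ℝ) ≤ ((commutator G).index : ℝ) := by exact_mod_cast h
  have hnn : ∀ ψ ∈ Finset.univ.filter (fun χ : IrrCharacter G => ¬ charDegree (χ : G → ℂ) = 1),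
      0 ≤ ‖(ψ : G → ℂ) g‖ ^ 2 := fun ψ _ => by positivity
  have h3 := Finset.single_le_sum hnn (Finset.mem_filter.mpr ⟨Finset.mem_univ χ, hχ⟩)
  have h4 : ‖(χ : G → ℂ) g‖ ^ 2 = 0 := le_antisymm (by linarith) (by positivity)
  exact norm_eq_zero.mp (by nlinarith [norm_nonneg ((χ : G → ℂ) g)])

/-- One of two values vanishes. -/
theorem apply_mul_apply_eq_zero [Fintype G] (hM : MulCond G) (χ : IrrCharacter G)
    (hχ : charDegree (χ : G → ℂ) ≠ 1) {x y : G} {p q a b : ℕ} (hp : p.Prime) (hq : q.Prime) (hpq : p ≠ q)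
    (ha : orderOf x = p ^ a) (hb : orderOf y = q ^ b) (hx : x ≠ 1) (hy : y ≠ 1) :
    (χ : G → ℂ) x * (χ : G → ℂ) y = 0 := by
  have hc := isCharacter_of_irr χ.2
  have h := sum_conj_apply_mul χ.2 x y
  have hterm : ∀ z : G, (χ : G → ℂ) (z * x * z⁻¹ * y) = (χ : G → ℂ) x * (χ : G → ℂ) y := by
    intro z
    rw [hM (z * x * z⁻¹) y χ (by simpa using hx) hy
      ⟨p, q, a, b, hp, hq, hpq, by rw [← ha]; exact (MulAut.conj z).orderOf_eq x, hb⟩, isClassFunction hc]
  rw [Finset.sum_congr rfl fun z _ => hterm z, Finset.sum_const, Finset.card_univ, nsmul_eq_mul,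
    ← Nat.card_eq_fintype_card, apply_one hc] at h
  have h1 : ((Nat.card G : ℂ)) * (((charDegree (χ : G → ℂ)) : ℂ) - 1) * ((χ : G → ℂ) x * (χ : G → ℂ) y) = 0 := by
    linear_combination h
  rcases mul_eq_zero.mp h1 with h2 | h2
  · exfalso
    rcases mul_eq_zero.mp h2 with h3 | h3
    · exact Nat.card_pos.ne' (by exact_mod_cast h3)
    · rw [sub_eq_zero] at h3
      exact hχ (by exact_mod_cast h3)
  · exact h2

/-- A character vanishing on the nontrivial `q`-elements has degree divisible by the `q`-part. -/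
theorem sylow_dvd_degree [Fintype G] {q : ℕ} [Fact q.Prime] (χ : IrrCharacter G) (Q : Sylow q G)
    (h : ∀ x : G, x ≠ 1 → (∃ k, orderOf x = q ^ k) → (χ : G → ℂ) x = 0) :
    Nat.card (Q : Subgroup G) ∣ charDegree (χ : G → ℂ) := by
  classical
  haveI := Fintype.ofFinite (Q : Subgroup G)
  have hc := isCharacter_of_irr χ.2
  obtain ⟨m, hm⟩ := classInner_characters_nat (isCharacter_restrict hc (Q : Subgroup G))
    (isCharacter_of_irr (isIrrCharacter_one (G := (Q : Subgroup G))))
  rw [classInner_one, Finset.sum_eq_single (1 : (Q : Subgroup G))] at hm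
  · refine ⟨m, ?_⟩
    have hne : (Nat.card (Q : Subgroup G) : ℂ) ≠ 0 := Nat.cast_ne_zero.mpr Nat.card_pos.ne'
    rw [inv_mul_eq_iff_eq_mul₀ hne] at hm
    rw [show ((χ : G → ℂ) ((1 : (Q : Subgroup G)) : G)) = (charDegree (χ : G → ℂ) : ℂ) from apply_one hc] at hm
    exact_mod_cast hm
  · intro z _ hz
    refine h (z : G) (fun k => hz (Subtype.ext k)) ?_
    obtain ⟨k, hk⟩ := IsPGroup.iff_orderOf.mp Q.isPGroup' z
    exact ⟨k, by rw [Subgroup.orderOf_coe]; exact hk⟩
  · exact fun k => absurd (Finset.mem_univ _) k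

theorem sq_degree_lt [Fintype G] (χ : IrrCharacter G) (hχ : charDegree (χ : G → ℂ) ≠ 1) :
    charDegree (χ : G → ℂ) ^ 2 < Nat.card G := by
  classical
  haveI := finite_irrCharacter (G := G)
  haveI := Fintype.ofFinite (IrrCharacter G)
  have hne : χ ≠ oneChar := by
    intro k
    apply hχ
    rw [k]
    have h1 := apply_one (isCharacter_of_irr (oneChar (G := G)).2)
    rw [oneChar_apply] at h1
    exact_mod_cast h1.symm
  have hpos := charDegree_pos (oneChar (G := G)).2
  have h2 : ∑ ψ ∈ ({χ, oneChar} : Finset (IrrCharacter G)), charDegree (ψ : G → ℂ) ^ 2 ≤ Nat.card G :=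
    le_of_le_of_eq (Finset.sum_le_sum_of_subset (Finset.subset_univ _)) sum_sq_degree
  rw [Finset.sum_pair hne] at h2
  have : 0 < charDegree ((oneChar (G := G)) : G → ℂ) ^ 2 := by positivity
  omega

/-- The prime on whose elements a given nonlinear character may fail to vanish. -/
theorem exists_prime_part [Fintype G] (hM : MulCond G) (χ : IrrCharacter G) (hχ : charDegree (χ : G → ℂ) ≠ 1) :
    ∃ (p : ℕ) (_ : Fact p.Prime) (P : Sylow p G), (P : Subgroup G).index ∣ charDegree (χ : G → ℂ) ∧
      (P : Subgroup G).index < Nat.card (P : Subgroup G) ∧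
      ∀ (q : ℕ) (x : G), q.Prime → q ≠ p → x ≠ 1 → (∃ k, orderOf x = q ^ k) → (χ : G → ℂ) x = 0 := by
  classical
  have hpos := charDegree_pos χ.2
  have hlt := sq_degree_lt χ hχ
  by_cases hS : ∀ (q : ℕ) (x : G), q.Prime → x ≠ 1 → (∃ k, orderOf x = q ^ k) → (χ : G → ℂ) x = 0
  · exfalso
    have hdvd : Nat.card G ∣ charDegree (χ : G → ℂ) := by
      refine (Nat.dvd_iff_prime_pow_dvd_dvd _ _).2 fun q k hq hqk => ?_
      haveI := Fact.mk hq
      obtain ⟨Q⟩ : Nonempty (Sylow q G) := inferInstance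
      exact (Q.pow_dvd_card_of_pow_dvd_card hqk).trans (sylow_dvd_degree χ Q fun x hx hk => hS q x hq hx hk)
    have := Nat.le_of_dvd hpos hdvd
    nlinarith
  push Not at hS
  obtain ⟨p, x₀, hp, hx₀, ⟨k₀, hk₀⟩, hne⟩ := hS
  haveI := Fact.mk hp
  obtain ⟨P⟩ : Nonempty (Sylow p G) := inferInstance
  have hvan : ∀ (q : ℕ) (x : G), q.Prime → q ≠ p → x ≠ 1 → (∃ k, orderOf x = q ^ k) → (χ : G → ℂ) x = 0 := by
    intro q x hq hqp hx hk
    obtain ⟨k, hk⟩ := hk
    exact (mul_eq_zero.mp (apply_mul_apply_eq_zero hM χ hχ hq hp hqp hk hk₀ hx hx₀)).resolve_right hne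
  have hdvd : (P : Subgroup G).index ∣ charDegree (χ : G → ℂ) := by
    refine (Nat.dvd_iff_prime_pow_dvd_dvd _ _).2 fun q k hq hqk => ?_
    rcases Nat.eq_zero_or_pos k with rfl | hk
    · simp
    haveI := Fact.mk hq
    obtain ⟨Q⟩ : Nonempty (Sylow q G) := inferInstance
    have hqp : q ≠ p := by
      rintro rfl
      exact P.not_dvd_index ((dvd_pow_self q hk.ne').trans hqk)
    refine (Q.pow_dvd_card_of_pow_dvd_card (hqk.trans ⟨_, ((P : Subgroup G).index_mul_card).symm⟩)).trans
      (sylow_dvd_degree χ Q fun x hx hk => hvan q x hq hqp hx hk)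
  refine ⟨p, inferInstance, P, hdvd, ?_, hvan⟩
  have h1 := Nat.le_of_dvd hpos hdvd
  have h2 : (P : Subgroup G).index ^ 2 < (P : Subgroup G).index * Nat.card (P : Subgroup G) := by
    rw [(P : Subgroup G).index_mul_card]
    exact lt_of_le_of_lt (Nat.pow_le_pow_left h1 2) hlt
  rw [sq] at h2
  exact Nat.lt_of_mul_lt_mul_left h2

theorem prime_unique [Finite G] {p q : ℕ} [Fact p.Prime] [Fact q.Prime] (P : Sylow p G) (Q : Sylow q G)
    (h1 : (P : Subgroup G).index < Nat.card (P : Subgroup G))
    (h2 : (Q : Subgroup G).index < Nat.card (Q : Subgroup G)) : p = q := by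
  by_contra hne
  have hco := IsPGroup.coprime_card_of_ne p q hne (P : Subgroup G) (Q : Subgroup G) P.isPGroup' Q.isPGroup'
  have hd1 : Nat.card (Q : Subgroup G) ∣ (P : Subgroup G).index :=
    hco.symm.dvd_of_dvd_mul_right (by rw [(P : Subgroup G).index_mul_card]; exact Subgroup.card_subgroup_dvd_card _)
  have hd2 : Nat.card (P : Subgroup G) ∣ (Q : Subgroup G).index :=
    hco.dvd_of_dvd_mul_right (by rw [(Q : Subgroup G).index_mul_card]; exact Subgroup.card_subgroup_dvd_card _)
  have := Nat.le_of_dvd (Nat.pos_of_ne_zero Subgroup.index_ne_zero_of_finite) hd1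
  have := Nat.le_of_dvd (Nat.pos_of_ne_zero Subgroup.index_ne_zero_of_finite) hd2
  omega

theorem exists_nonlinear [Finite G] (hab : ¬ IsMulCommutative G) :
    ∃ χ : IrrCharacter G, charDegree (χ : G → ℂ) ≠ 1 := by
  classical
  by_contra h
  push Not at h
  haveI := Fintype.ofFinite G
  haveI := finite_irrCharacter (G := G)
  haveI := Fintype.ofFinite (IrrCharacter G)
  have h1 : (commutator G).index = Nat.card G := by
    rw [← card_linear, Nat.card_congr (Equiv.subtypeUnivEquiv h), ← sum_sq_degree (G := G)]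
    simp [h]
  have hbot : commutator G = ⊥ := by
    apply Subgroup.eq_bot_of_card_eq
    have := (commutator G).index_mul_card
    rw [h1] at this
    exact (Nat.mul_eq_left Nat.card_pos.ne').mp this
  apply hab
  refine ⟨⟨fun x y => ?_⟩⟩
  have : ⁅x, y⁆ ∈ commutator G := Subgroup.commutator_mem_commutator (Subgroup.mem_top x) (Subgroup.mem_top y)
  rw [hbot, Subgroup.mem_bot, commutatorElement_eq_one_iff_mul_comm] at this
  exact this

/-- The Sylow subgroup for the exceptional prime contains the derived subgroup, and all nonlinear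
characters vanish on the other prime power elements. -/
theorem exists_core [Fintype G] (hM : MulCond G) (hab : ¬ IsMulCommutative G) :
    ∃ (p : ℕ) (_ : Fact p.Prime) (P : Sylow p G), commutator G ≤ (P : Subgroup G) ∧
      ∀ (χ : IrrCharacter G) (q : ℕ) (x : G), charDegree (χ : G → ℂ) ≠ 1 → q.Prime → q ≠ p → x ≠ 1 →
        (∃ k, orderOf x = q ^ k) → (χ : G → ℂ) x = 0 := by
  classical
  haveI := finite_irrCharacter (G := G)
  haveI := Fintype.ofFinite (IrrCharacter G)
  obtain ⟨χ₀, hχ₀⟩ := exists_nonlinear hab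
  obtain ⟨p, hpF, P, -, hlt, -⟩ := exists_prime_part hM χ₀ hχ₀
  have hall : ∀ χ : IrrCharacter G, charDegree (χ : G → ℂ) ≠ 1 → (P : Subgroup G).index ∣ charDegree (χ : G → ℂ) ∧
      ∀ (q : ℕ) (x : G), q.Prime → q ≠ p → x ≠ 1 → (∃ k, orderOf x = q ^ k) → (χ : G → ℂ) x = 0 := by
    intro χ hχ
    obtain ⟨p', hp'F, P', hd, hlt', hv⟩ := exists_prime_part hM χ hχ
    obtain rfl := prime_unique P P' hlt hlt'
    have hidx : (P : Subgroup G).index = (P' : Subgroup G).index := by
      have h1 := (P : Subgroup G).index_mul_card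
      rw [P.card_eq_multiplicity, ← P'.card_eq_multiplicity, ← (P' : Subgroup G).index_mul_card] at h1
      exact Nat.eq_of_mul_eq_mul_right Nat.card_pos h1
    rw [hidx]
    exact ⟨hd, hv⟩
  refine ⟨p, hpF, P, ?_, fun χ q x hχ => (hall χ hχ).2 q x⟩
  have hm : (P : Subgroup G).index ∣ (commutator G).index := by
    have h := sum_sq_degree (G := G)
    rw [← Finset.sum_filter_add_sum_filter_not Finset.univ
      (fun χ : IrrCharacter G => charDegree (χ : G → ℂ) = 1)] at h
    rw [Finset.sum_congr rfl (s₁ := Finset.univ.filter fun χ : IrrCharacter G => charDegree (χ : G → ℂ) = 1)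
      (g := fun _ => (1 : ℕ)) (fun χ hχ => by rw [(Finset.mem_filter.mp hχ).2, one_pow]),
      Finset.sum_const, smul_eq_mul, mul_one] at h
    rw [← card_linear, Nat.card_eq_fintype_card, Fintype.card_subtype]
    have hG : (P : Subgroup G).index ∣ Nat.card G := ⟨_, ((P : Subgroup G).index_mul_card).symm⟩
    rw [← h] at hG
    refine (Nat.dvd_add_left ?_).mp hG
    refine Finset.dvd_sum fun χ hχ => ?_
    exact (hall χ (Finset.mem_filter.mp hχ).2).1.trans (dvd_pow_self _ two_ne_zero)
  have hd : Nat.card (commutator G) ∣ Nat.card (P : Subgroup G) := by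
    obtain ⟨t, ht⟩ := hm
    have h1 := (commutator G).index_mul_card
    rw [← (P : Subgroup G).index_mul_card, ht, mul_assoc] at h1
    exact ⟨t, by rw [mul_comm]; exact (mul_left_cancel₀ Subgroup.index_ne_zero_of_finite h1).symm⟩
  have hpg : IsPGroup p (commutator G) := by
    obtain ⟨n, hn⟩ := IsPGroup.iff_card.mp P.isPGroup'
    rw [hn] at hd
    obtain ⟨i, -, hi⟩ := (Nat.dvd_prime_pow hpF.out).mp hd
    exact IsPGroup.of_card hi
  obtain ⟨P', hP'⟩ := hpg.exists_le_sylow
  obtain ⟨g, rfl⟩ := MulAction.exists_smul_eq G P P'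
  intro c hc
  have : g * c * g⁻¹ ∈ commutator G := (inferInstance : (commutator G).Normal).conj_mem c hc g
  have h2 := hP' this
  rw [Sylow.coe_subgroup_smul, Subgroup.mem_pointwise_smul_iff_inv_smul_mem] at h2
  simpa [MulAut.conj_apply, mul_assoc] using h2

/-- Every element of the coset `gN` is conjugate to `g` when `N` is normal with `G' ≤ N` and
the centralizer is small enough. -/
theorem exists_conj_eq_mul [Finite G] {a d : G}
    (ha : Nat.card (Subgroup.centralizer ({a} : Set G)) = (commutator G).index) (hd : d ∈ commutator G) :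
    ∃ x : G, x * a * x⁻¹ = a * d := by
  classical
  let f : {x : G // IsConj a x} → commutator G := fun x => ⟨a⁻¹ * x.1, by
    obtain ⟨c, hc⟩ := isConj_iff.mp x.2
    have : ⁅a⁻¹, c⁆ ∈ commutator G := Subgroup.commutator_mem_commutator (Subgroup.mem_top _) (Subgroup.mem_top _)
    rw [← hc]
    simpa [commutatorElement_def, mul_assoc] using this⟩
  have hf : Function.Injective f := fun x y h => Subtype.ext (by
    simpa [f] using congrArg Subtype.val h)
  have hcard : Nat.card {x : G // IsConj a x} = Nat.card (commutator G) := by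
    rw [card_conjClass]
    have h1 := (Subgroup.centralizer ({a} : Set G)).index_mul_card
    rw [ha, ← (commutator G).index_mul_card, mul_comm] at h1
    exact mul_left_cancel₀ Subgroup.index_ne_zero_of_finite h1
  obtain ⟨x, hx⟩ := ((Nat.bijective_iff_injective_and_card f).mpr ⟨hf, hcard⟩).2 ⟨d, hd⟩
  obtain ⟨c, hc⟩ := isConj_iff.mp x.2
  refine ⟨c, ?_⟩
  have h' : a⁻¹ * x.1 = d := congrArg Subtype.val hx
  rw [hc, ← h', mul_inv_cancel_left]

end CfsgLib.CharMult
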